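import Cfsg.Agent.H9.DG0

set_option autoImplicit false

/-! Sections of symplectic type: the index `|E : A|` and the classes of elements of order `r`. -/

namespace Cfsg.Agent.Dg
open Cfsg.Agent.H9.DG

universe u

section
variable {p : ℕ} [Fact p.Prime] {H V : Type u} [Group H] [AddCommGroup V] [Module (ZMod p) V]

/-- endomorphisms that transform like `ρ e` under conjugation by `E` -/
def Wt (ρ : Representation (ZMod p) H V) (E : Subgroup H) (e : H) : Submodule (ZMod p) (Module.End (ZMod p) V) where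
  carrier := {φ | ∀ g ∈ E, ρ g * φ * ρ g⁻¹ = ρ (g * e * g⁻¹ * e⁻¹) * φ}
  add_mem' ha hb g hg := by rw [mul_add, add_mul, ha g hg, hb g hg, mul_add]
  zero_mem' g _ := by simp
  smul_mem' c φ h g hg := by rw [mul_smul_comm, smul_mul_assoc, h g hg, mul_smul_comm]

theorem sr_eq {ρ : Representation (ZMod p) H V} {A : Subgroup H} (h : Sr ρ A) {a b : H} (ha : a ∈ A) (hb : b ∈ A)
    (ab : a ≠ b) {v : V} (e : ρ a v = ρ b v) : v = 0 := by
  refine h (b⁻¹ * a) (A.mul_mem (A.inv_mem hb) ha) (fun c => ab (inv_mul_eq_one.1 c).symm) v ?_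
  rw [map_mul, Module.End.mul_apply, e, ← Module.End.mul_apply, ← map_mul, inv_mul_cancel, map_one, Module.End.one_apply]
end

theorem c3b (ind : Ind.{u}) : C3b.{u} := by
  intro p _ H V _ _ _ _ _ _ ρ A E r h hs
  classical
  have key := (ind p (Module.End (ZMod p) V) (E ⧸ A.subgroupOf E) (fun i => Wt ρ E (i.out : E)) ?_).1
  · have := Fintype.ofFinite (E ⧸ A.subgroupOf E)
    have ne : ∀ i : E ⧸ A.subgroupOf E, Wt ρ E (i.out : E) ≠ ⊥ := fun i c => by
      have m : ρ (i.out : E) ∈ Wt ρ E (i.out : E) := fun g _ => by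
        rw [← map_mul, ← map_mul, ← map_mul, inv_mul_cancel_right]
      rw [c, Submodule.mem_bot] at m
      have : (1 : Module.End (ZMod p) V) = 0 := by
        rw [← map_one ρ, ← mul_inv_cancel ((i.out : E) : H), map_mul, m, zero_mul]
      exact one_ne_zero this
    have := key.subtype_ne_bot_le_finrank
    rw [Fintype.card_congr (Equiv.subtypeUnivEquiv ne), Module.finrank_linearMap, ← sq, ← Nat.card_eq_fintype_card] at this
    exact this
  intro i j ij
  have nm : ((j.out : E) : H)⁻¹ * (i.out : E) ∉ A := fun c => ij <| by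
    rw [← QuotientGroup.out_eq' i, ← QuotientGroup.out_eq' j, eq_comm, QuotientGroup.eq]
    exact c
  obtain ⟨g, hg, ng⟩ : ∃ g ∈ E, ((j.out : E) : H)⁻¹ * (i.out : E) * g ≠ g * (((j.out : E) : H)⁻¹ * (i.out : E)) := by
    by_contra! c
    exact nm (h.zE _ (E.mul_mem (E.inv_mem j.out.2) i.out.2) c)
  generalize i.out = ei at *
  generalize j.out = ej at *
  have cm : ∀ e : E, ∀ k ∈ E, k * e * k⁻¹ * (e : H)⁻¹ ∈ A := fun e k hk => h.com k hk e e.2
  have sw : ∀ a ∈ A, ∀ k ∈ E, ρ k * ρ a = ρ a * ρ k := fun a ha k hk => by rw [← map_mul, ← map_mul, h.cen a ha k hk]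
  refine ⟨LinearMap.mulLeftRight (ZMod p) (ρ g⁻¹, ρ g⁻¹⁻¹) - LinearMap.mulLeft (ZMod p) (ρ (g⁻¹ * ei * g⁻¹⁻¹ * (ei : H)⁻¹)),
    fun l φ hφ k hk => ?_, fun φ hφ => ?_, fun φ hφ h0 => ?_⟩
  · simp only [LinearMap.sub_apply, LinearMap.mulLeftRight_apply, LinearMap.mulLeft_apply]
    rw [hφ _ (E.inv_mem hg), mul_sub, sub_mul, mul_sub]
    have t : ∀ a ∈ A, ρ k * (ρ a * φ) * ρ k⁻¹ = ρ (k * l.out * k⁻¹ * ((l.out : E) : H)⁻¹) * (ρ a * φ) := fun a ha => by
      rw [← mul_assoc, sw a ha k hk, mul_assoc (ρ a), mul_assoc (ρ a), hφ k hk, ← mul_assoc, ← mul_assoc,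
        sw _ (cm _ k hk) a (h.le ha)]
    rw [t _ (cm _ _ (E.inv_mem hg)), t _ (cm _ _ (E.inv_mem hg))]
  · simp only [LinearMap.sub_apply, LinearMap.mulLeftRight_apply, LinearMap.mulLeft_apply]
    rw [hφ _ (E.inv_mem hg), sub_self]
  · simp only [LinearMap.sub_apply, LinearMap.mulLeftRight_apply, LinearMap.mulLeft_apply] at h0
    rw [hφ _ (E.inv_mem hg), sub_eq_zero] at h0
    refine LinearMap.ext fun v => sr_eq hs (cm ej _ (E.inv_mem hg)) (cm ei _ (E.inv_mem hg)) (fun c => ng ?_)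
      (LinearMap.congr_fun h0 v)
    calc (ej : H)⁻¹ * ei * g = (ej : H)⁻¹ * g * (g⁻¹ * ei * g⁻¹⁻¹ * (ei : H)⁻¹) * ei := by group
      _ = (ej : H)⁻¹ * g * (g⁻¹ * ej * g⁻¹⁻¹ * (ej : H)⁻¹) * ei := by rw [c]
      _ = _ := by group

theorem cls_le {H : Type u} [Group H] [Finite H] {r : ℕ} {A E : Subgroup H} (h : St r A E) (r0 : 0 < r) {y : H} (hy : y ∈ E)
    (yr : y ^ r = 1) : (Subgroup.centralizer {y}).index ≤ r * A.relIndex E := by
  classical
  have := Fintype.ofFinite E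
  have := Fintype.ofFinite A
  have := Fintype.ofFinite (E ⧸ A.subgroupOf E)
  have := h.cyc
  have a : (Subgroup.centralizer {y}).index ≤ (Finset.univ.filter fun e : E => e ^ r = 1).card := by
    rw [← Fintype.card_subtype, ← Nat.card_eq_fintype_card]
    refine Nat.card_le_card_of_injective (fun q : H ⧸ Subgroup.centralizer {y} =>
      (⟨⟨q.out * y * q.out⁻¹, h.nE.conj_mem y hy _⟩, Subtype.ext (by simp [yr])⟩ : {e : E // e ^ r = 1})) fun q q' e => ?_
    have e : q.out * y * q.out⁻¹ = q'.out * y * q'.out⁻¹ := congrArg (fun t => (t.1 : H)) e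
    rw [← QuotientGroup.out_eq' q, ← QuotientGroup.out_eq' q', QuotientGroup.eq, Subgroup.mem_centralizer_singleton_iff]
    calc q.out⁻¹ * q'.out * y = q.out⁻¹ * (q'.out * y * q'.out⁻¹) * q'.out := by group
      _ = _ := by rw [← e]; group
  refine a.trans ((Finset.card_le_mul_card_image (f := fun e : E => (e : E ⧸ A.subgroupOf E)) _ r fun b hb => ?_).trans
    (Nat.mul_le_mul_left _ ((Finset.card_le_univ _).trans_eq Nat.card_eq_fintype_card.symm)))
  obtain ⟨e0, h0, rfl⟩ := Finset.mem_image.1 hb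
  refine le_trans ?_ (IsCyclic.card_pow_eq_one_le (α := A) r0)
  refine Finset.card_le_card_of_injOn (fun e : E => if c : (e0 : H)⁻¹ * e ∈ A then (⟨_, c⟩ : A) else 1) (fun e he => ?_)
    fun e he e' he' c => ?_
  · simp only [Finset.coe_filter, Finset.mem_filter, Finset.mem_univ, true_and, Set.mem_setOf_eq] at he h0 ⊢
    have m : (e0 : H)⁻¹ * e ∈ A := Subgroup.mem_subgroupOf.1 (QuotientGroup.eq.1 he.2.symm)
    rw [dif_pos m]
    have c : Commute (e0 : H) ((e0 : H)⁻¹ * e) := (h.cen _ m _ e0.2).symm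
    have := c.mul_pow r
    rw [mul_inv_cancel_left, ← Subgroup.coe_pow, ← Subgroup.coe_pow, he.1, h0, OneMemClass.coe_one, one_mul] at this
    exact Subtype.ext this.symm
  · simp only [Finset.coe_filter, Finset.mem_filter, Finset.mem_univ, true_and, Set.mem_setOf_eq] at he he'
    have m : (e0 : H)⁻¹ * e ∈ A := Subgroup.mem_subgroupOf.1 (QuotientGroup.eq.1 he.2.symm)
    have m' : (e0 : H)⁻¹ * e' ∈ A := Subgroup.mem_subgroupOf.1 (QuotientGroup.eq.1 he'.2.symm)
    simp only [dif_pos m, dif_pos m', Subtype.mk.injEq, mul_right_inj] at c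
    exact Subtype.ext c

end Cfsg.Agent.Dg
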