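import Cfsg.Agent.Dg.C3b

set_option autoImplicit false

/-! Sections of symplectic type, odd `r`. -/

namespace Cfsg.Agent.Dg
open Cfsg.Agent.H9.DG

universe u

section
variable {p : ℕ} [Fact p.Prime] {H V : Type u} [Group H] [AddCommGroup V] [Module (ZMod p) V]

/-- fixed vectors -/
def Fx (ρ : Representation (ZMod p) H V) (x : H) : Submodule (ZMod p) V := LinearMap.ker (ρ x - 1)

theorem mem_Fx {ρ : Representation (ZMod p) H V} {x : H} {v : V} : v ∈ Fx ρ x ↔ ρ x v = v := by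
  simp [Fx, sub_eq_zero]

theorem Fx_conj {ρ : Representation (ZMod p) H V} {x : H} (g : H) {v : V} (h : v ∈ Fx ρ x) : ρ g v ∈ Fx ρ (g * x * g⁻¹) := by
  rw [mem_Fx] at h ⊢
  rw [← Module.End.mul_apply, ← map_mul, inv_mul_cancel_right, map_mul, Module.End.mul_apply, h]

theorem Fx_comm {ρ : Representation (ZMod p) H V} {x g : H} (c : g * x = x * g) {v : V} (h : v ∈ Fx ρ x) : ρ g v ∈ Fx ρ x := by
  have := Fx_conj g h
  rwa [c, mul_inv_cancel_right] at this

theorem rho_inj (ρ : Representation (ZMod p) H V) (g : H) : Function.Injective (ρ g) := fun v w h => by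
  have := congrArg (ρ g⁻¹) h
  rwa [← Module.End.mul_apply, ← Module.End.mul_apply, ← map_mul, inv_mul_cancel, map_one] at this

theorem card_le_of [Finite V] (ρ : Representation (ZMod p) H V) (g : H) {U W : Submodule (ZMod p) V}
    (h : ∀ v ∈ U, ρ g v ∈ W) : Nat.card U ≤ Nat.card W :=
  Nat.card_le_card_of_injective (fun v : U => (⟨ρ g v, h v v.2⟩ : W)) fun _ _ e =>
    Subtype.ext (rho_inj ρ g (congrArg Subtype.val e))
end

theorem conj_pow_eq {H : Type u} [Group H] {g y z : H} (h : g * y * g⁻¹ = y * z) (c : g * z = z * g) (k : ℕ) :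
    g ^ k * y * (g ^ k)⁻¹ = y * z ^ k := by
  induction k with
  | zero => simp
  | succ k ih =>
    have c' : g * z ^ k = z ^ k * g := (Commute.pow_right c k)
    calc g ^ (k + 1) * y * (g ^ (k + 1))⁻¹ = g * (g ^ k * y * (g ^ k)⁻¹) * g⁻¹ := by group
      _ = (g * y * g⁻¹) * (g * z ^ k * g⁻¹) := by rw [ih]; group
      _ = _ := by rw [h, c', mul_inv_cancel_right, pow_succ', mul_assoc]

theorem c3c (l3 : L3.{u}) (ind : Ind.{u}) (rr : RR.{u}) (c3b : C3b.{u}) : C3c.{u} := by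
  intro p _ H V _ _ _ _ _ ρ K A E r y0 big af hr rp r2 _ h hs hy0 ny0 yr0
  classical
  have : Nontrivial V := Finite.one_lt_card_iff_nontrivial.1 (lt_of_lt_of_le (by norm_num) big)
  obtain ⟨g, hg, ng⟩ : ∃ g ∈ E, y0 * g ≠ g * y0 := by
    by_contra! c
    exact ny0 (h.zE _ hy0 c)
  obtain ⟨z, hz⟩ : ∃ z, z = g * y0 * g⁻¹ * y0⁻¹ := ⟨_, rfl⟩
  have zA : z ∈ A := hz ▸ h.com g hg y0 hy0
  have z1 : z ≠ 1 := fun c => ng (by
    calc y0 * g = z * y0 * g := by rw [c, one_mul]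
      _ = _ := by rw [hz]; group)
  have cz : Commute y0 z := (h.cen z zA y0 hy0).symm
  have e0 : g * y0 * g⁻¹ = y0 * z := by rw [cz.eq, hz]; group
  have zr : z ^ r = 1 := by
    have := congrArg (· ^ r) e0
    simp only [conj_pow, cz.mul_pow, yr0, one_mul, mul_one, mul_inv_cancel] at this
    exact this.symm
  obtain ⟨i, v, v0, hv⟩ := rr p H V ρ r y0 z hr rp yr0 zr cz.eq (hs z zA z1)
  obtain ⟨y, hy⟩ : ∃ y, y = y0 * z ^ i := ⟨_, rfl⟩
  have yE : y ∈ E := hy ▸ E.mul_mem hy0 (E.pow_mem (h.le zA) i)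
  have yr : y ^ r = 1 := by rw [hy, (cz.pow_right i).mul_pow, yr0, ← pow_mul, mul_comm, pow_mul, zr, one_pow, one_mul]
  have gz : g * z = z * g := (h.cen z zA g hg).symm
  have e1 : g * y * g⁻¹ = y * z := by
    have c' : g * z ^ i = z ^ i * g := Commute.pow_right gz i
    calc g * y * g⁻¹ = (g * y0 * g⁻¹) * (g * z ^ i * g⁻¹) := by rw [hy]; group
      _ = _ := by rw [e0, c', mul_inv_cancel_right, hy]; group
  have hv : v ∈ Fx ρ y := mem_Fx.2 (hy ▸ hv)
  have mv : ∀ k : ℕ, ∀ w ∈ Fx ρ y, ρ (g ^ k) w ∈ Fx ρ (y * z ^ k) := fun k w hw => conj_pow_eq e1 gz k ▸ Fx_conj _ hw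
  have oz : orderOf z = r := by
    have := Fact.mk hr
    exact orderOf_eq_prime zr z1
  have cy : ∀ k l : ℕ, y * z ^ k * (y * z ^ l) = y * z ^ l * (y * z ^ k) := fun k l => by
    have c : Commute y z := (h.cen z zA y yE).symm
    exact (((Commute.refl y).mul_right (c.pow_right l)).mul_left
      ((c.symm.pow_left k).mul_right ((Commute.refl z).pow_pow k l))).eq
  obtain ⟨a, b⟩ := ind p V (ULift.{u} (Fin r)) (fun k => Fx ρ (y * z ^ (k.down : ℕ))) fun k l kl =>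
    ⟨ρ (y * z ^ (k.down : ℕ)) - 1, fun m w hw => (Fx ρ _).sub_mem (Fx_comm (cy _ _) hw) hw, fun w hw => hw, fun w hw h0 => by
      have h1 : ρ (y * z ^ (k.down : ℕ)) w = ρ (y * z ^ (l.down : ℕ)) w := (mem_Fx.1 h0).trans (mem_Fx.1 hw).symm
      rw [map_mul, map_mul, Module.End.mul_apply, Module.End.mul_apply] at h1
      refine sr_eq hs (A.pow_mem zA _) (A.pow_mem zA _) (fun c => kl (ULift.ext _ _ (Fin.ext ?_))) (rho_inj ρ y h1)
      exact pow_injOn_Iio_orderOf (oz ▸ k.down.2) (oz ▸ l.down.2) c⟩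
  have r3 : 3 ≤ r := by have := hr.two_le; omega
  have ne : ∀ k : ULift.{u} (Fin r), Fx ρ (y * z ^ (k.down : ℕ)) ≠ ⊥ := fun k c => by
    have := mv k.down v hv
    rw [c, Submodule.mem_bot] at this
    exact v0 (rho_inj ρ _ (this.trans (map_zero _).symm))
  have rD := a.subtype_ne_bot_le_finrank
  rw [Fintype.card_congr (Equiv.subtypeUnivEquiv ne), Fintype.card_ulift, Fintype.card_fin] at rD
  refine l3 p H V ρ K (Subgroup.centralizer {y}) (Fx ρ y) big af
    (fun k hk w hw => Fx_comm (Subgroup.mem_centralizer_singleton_iff.1 hk) hw)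
    (fun c => v0 ((Submodule.mem_bot _).1 (c ▸ hv))) ?_ ((cls_le h hr.pos yE yr).trans ?_)
  · refine le_trans ?_ (b ⟨⟨0, by omega⟩⟩ ⟨⟨1, by omega⟩⟩ ⟨⟨2, by omega⟩⟩ (by simp) (by simp) (by simp) inferInstance)
    rw [pow_three']
    exact Nat.mul_le_mul (Nat.mul_le_mul (card_le_of ρ _ (mv 0)) (card_le_of ρ _ (mv 1))) (card_le_of ρ _ (mv 2))
  · have := Nat.mul_le_mul rD (c3b p H V ρ A E r h hs)
    generalize Module.finrank (ZMod p) V = d at *
    have : d ^ 3 ≤ d ^ 4 := Nat.pow_le_pow_right (by omega) (by norm_num)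
    nlinarith

end Cfsg.Agent.Dg
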