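import Cfsg.Agent.H3.DR0

set_option autoImplicit false

/-! Dyadic scales for the proportion of derangements (package `PS`). -/

namespace Cfsg.Agent.Dg
open MulAction Finset Cfsg.Agent.H3.DR

universe u v

theorem ps_core {G : Type u} {Ω : Type v} [Group G] [Fintype G] [MulAction G Ω] [Fintype Ω] {m : ℕ} {p b B : ℝ}
    (hp : 0 < p) (h : Kq G Ω m p (p ^ 2 * b)) (S : Finset G)
    (hS : ∀ g ∈ S, 1.1 ≤ (fx Ω g : ℝ) * p ∧ (fx Ω g : ℝ) * p ≤ B) (hB : 0 < B) :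
    (∑ g ∈ S, (fx Ω g : ℝ) ^ 2) / Fintype.card G ≤ 121 * dl G Ω * b * (B + Fintype.card Ω / m) := by
  have hN : (0 : ℝ) < Fintype.card G := by exact_mod_cast Fintype.card_pos
  have hc : (0 : ℝ) ≤ Fintype.card Ω / m := by positivity
  unfold Kq at h
  generalize (Fintype.card Ω : ℝ) / m = c at *
  have h1 : ∑ g ∈ S, (fx Ω g : ℝ) ^ 2 * (p ^ 2 / (121 * (B + c))) ≤
      ∑ x : G, (max (fx Ω x * p - 1) 0) ^ 2 / (fx Ω x * p + c) := by
    refine le_trans (sum_le_sum fun g hg => ?_) (sum_le_sum_of_subset_of_nonneg (subset_univ S) fun g _ _ => by positivity)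
    obtain ⟨a1, a2⟩ := hS g hg
    rw [max_eq_left (by linarith)]
    have e : (fx Ω g : ℝ) ^ 2 * (p ^ 2 / (121 * (B + c))) = (fx Ω g * p / 11) ^ 2 / (B + c) := by
      field_simp; norm_num
    rw [e]
    generalize (fx Ω g : ℝ) * p = μ at *
    refine div_le_div₀ (by positivity) (pow_le_pow_left₀ (by linarith) (by linarith) 2) (by linarith) (by linarith)
  rw [← sum_mul] at h1
  rw [div_le_iff₀ hN] at h ⊢
  have h2 := h1.trans h
  have hD : 0 < 121 * (B + c) := by positivity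
  rw [← mul_div_assoc, div_le_iff₀ hD] at h2
  have hp2 : 0 < p ^ 2 := by positivity
  refine le_of_mul_le_mul_right ?_ hp2
  calc _ ≤ _ := h2
    _ = _ := by ring

theorem ps : PS.{u, v} := by
  intro G Ω _ _ _ _ m φ β hn hm h1 h2 hβ hF hK
  classical
  have n0 : (100 : ℝ) ≤ Fintype.card Ω := by exact_mod_cast hn
  have s0 : 0 < √(Fintype.card Ω : ℝ) := Real.sqrt_pos.2 (by linarith)
  have ss : √(Fintype.card Ω : ℝ) * √(Fintype.card Ω : ℝ) = Fintype.card Ω := Real.mul_self_sqrt (by linarith)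
  have φ0 : 0 < φ := lt_of_lt_of_le (by positivity) h1
  have h1' : 1 ≤ φ * √(Fintype.card Ω : ℝ) := by rwa [div_le_iff₀ s0] at h1
  have hK' : ∀ k : ℕ, Kq G Ω m (φ ^ k) ((φ ^ k) ^ 2 * β ^ k) := fun k => by
    have := hK k
    rwa [mul_pow, ← pow_mul, mul_comm 2 k, pow_mul] at this
  have d0 : 0 ≤ dl G Ω := by unfold dl; positivity
  have hN : (0 : ℝ) < Fintype.card G := by exact_mod_cast Fintype.card_pos
  unfold MM
  generalize hS : ({g : G | g ≠ 1 ∧ 1.1 * √(Fintype.card Ω : ℝ) ≤ fx Ω g} : Finset G) = S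
  have mS : ∀ g ∈ S, 1.1 * √(Fintype.card Ω : ℝ) ≤ fx Ω g ∧ (fx Ω g : ℝ) ≤ φ * Fintype.card Ω := fun g hg => by
    rw [← hS, mem_filter] at hg
    exact ⟨hg.2.2, hF g hg.2.1⟩
  constructor
  · have := ps_core (B := Fintype.card Ω * φ ^ 2) (pow_pos φ0 1) (hK' 1) S (fun g hg => by
      obtain ⟨a1, a2⟩ := mS g hg
      rw [pow_one]
      constructor <;> nlinarith) (by positivity)
    simpa using this
  intro T T1 T2
  have ex : ∃ s : ℕ, φ ^ s ≤ 1 / 2 := by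
    obtain ⟨s, hs⟩ := exists_pow_lt_of_lt_one (by norm_num : (0 : ℝ) < 1 / 2) h2
    exact ⟨s, hs.le⟩
  obtain ⟨s, hs1, hs2⟩ : ∃ s : ℕ, φ ^ s ≤ 1 / 2 ∧ φ / 2 ≤ φ ^ s := by
    refine ⟨Nat.find ex, Nat.find_spec ex, ?_⟩
    obtain h0 | ⟨t, ht⟩ : Nat.find ex = 0 ∨ ∃ t, Nat.find ex = t + 1 := by
      rcases Nat.find ex with _ | t
      · exact Or.inl rfl
      · exact Or.inr ⟨t, rfl⟩
    · rw [h0, pow_zero]; linarith
    · have := Nat.find_min ex (m := t) (by omega)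
      rw [ht, pow_succ]
      nlinarith [not_le.1 this]
  obtain ⟨I, hI⟩ : ∃ I, I = Nat.log 2 (Fintype.card Ω) := ⟨_, rfl⟩
  have I1 : ((2 : ℝ) ^ I) ≤ Fintype.card Ω := by
    rw [hI]; exact_mod_cast Nat.pow_log_le_self 2 (by omega)
  have I2 : (Fintype.card Ω : ℝ) < 2 ^ (I + 1) := by
    rw [hI]; exact_mod_cast Nat.lt_pow_succ_log_self (by norm_num) _
  have I3 : (I : ℝ) ≤ 2 * Real.log (Fintype.card Ω) := by
    have := Real.log_le_log (by positivity) I1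
    rw [Real.log_pow] at this
    have l2 := Real.log_two_gt_d9
    have : (0 : ℝ) ≤ I := by positivity
    nlinarith
  let A : Finset ℕ := (range (I + 1)).filter fun i => T / Fintype.card Ω ≤ φ ^ (s * i)
  have A0 : 0 ∈ A := mem_filter.2 ⟨mem_range.2 (by omega), by
    rw [mul_zero, pow_zero, div_le_one (by linarith)]; nlinarith⟩
  obtain ⟨i, iA, hi⟩ := exists_max_image A (fun i => β ^ (s * i)) ⟨0, A0⟩
  refine ⟨s * i, (mem_filter.1 iA).2, ?_⟩
  let C : ℕ → Finset G := fun j => S.filter fun g => T ≤ (fx Ω g : ℝ) * φ ^ (s * j) ∧ (fx Ω g : ℝ) * φ ^ (s * j) ≤ 2 * T / φ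
  have cov : ∀ g ∈ S, ∃ j ∈ A, g ∈ C j := fun g hg => by
    obtain ⟨a1, a2⟩ := mS g hg
    have a3 : (fx Ω g : ℝ) ≤ Fintype.card Ω := by nlinarith
    have f0 : (0 : ℝ) ≤ fx Ω g := by positivity
    have e2 : (fx Ω g : ℝ) * φ ^ (s * (I + 1)) < T := by
      have : φ ^ (s * (I + 1)) ≤ (1 / 2) ^ (I + 1) := by
        rw [pow_mul]; exact pow_le_pow_left₀ (by positivity) hs1 _
      have h3 : (Fintype.card Ω : ℝ) * (1 / 2) ^ (I + 1) < 1 := by
        rw [one_div, inv_pow, ← div_eq_mul_inv, div_lt_one (by positivity)]; exact I2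
      have := mul_le_mul a3 this (by positivity) (by linarith)
      linarith
    have ex2 : ∃ j : ℕ, (fx Ω g : ℝ) * φ ^ (s * (j + 1)) < T := ⟨I, e2⟩
    have j1 := Nat.find_spec ex2
    have j2 : Nat.find ex2 ≤ I := Nat.find_min' ex2 e2
    have j3 : T ≤ (fx Ω g : ℝ) * φ ^ (s * Nat.find ex2) := by
      obtain h0 | ⟨t, ht⟩ : Nat.find ex2 = 0 ∨ ∃ t, Nat.find ex2 = t + 1 := by
        rcases Nat.find ex2 with _ | t
        · exact Or.inl rfl
        · exact Or.inr ⟨t, rfl⟩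
      · rw [h0, mul_zero, pow_zero]; nlinarith
      · rw [ht]; exact not_lt.1 (Nat.find_min ex2 (m := t) (by omega))
    generalize Nat.find ex2 = j at *
    have pj : 0 < φ ^ (s * j) := pow_pos φ0 _
    refine ⟨j, mem_filter.2 ⟨mem_range.2 (by omega), ?_⟩, mem_filter.2 ⟨hg, j3, ?_⟩⟩
    · rw [div_le_iff₀ (by linarith)]; nlinarith
    · rw [mul_add, mul_one, pow_add, ← mul_assoc] at j1
      rw [le_div_iff₀ φ0]
      have : 0 ≤ (fx Ω g : ℝ) * φ ^ (s * j) := by positivity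
      nlinarith
  have B0 : 0 < 2 * T / φ := by have : 0 < T := by linarith
                                positivity
  have hc : (0 : ℝ) ≤ Fintype.card Ω / m := by positivity
  have each : ∀ j ∈ A, (∑ g ∈ C j, (fx Ω g : ℝ) ^ 2) / Fintype.card G ≤
      121 * dl G Ω * β ^ (s * i) * (2 * T / φ + Fintype.card Ω / m) := fun j hj => by
    refine (ps_core (B := 2 * T / φ) (pow_pos φ0 _) (hK' (s * j)) (C j) (fun g hg => ?_) B0).trans ?_
    · obtain ⟨-, a1, a2⟩ := mem_filter.1 hg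
      exact ⟨T1.trans a1, a2⟩
    · have := hi j hj
      gcongr
  have tot : ∑ g ∈ S, (fx Ω g : ℝ) ^ 2 ≤ ∑ j ∈ A, ∑ g ∈ C j, (fx Ω g : ℝ) ^ 2 := by
    simp only [C, sum_filter]
    rw [sum_comm]
    refine sum_le_sum fun g hg => ?_
    obtain ⟨j, jA, hj⟩ := cov g hg
    refine le_trans ?_ (single_le_sum (fun j _ => by positivity) jA)
    rw [if_pos (mem_filter.1 hj).2]
  have cA : (#A : ℝ) ≤ 2 * Real.log (Fintype.card Ω) + 1 := by
    have : #A ≤ I + 1 := (card_filter_le _ _).trans (card_range _).le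
    have : (#A : ℝ) ≤ I + 1 := by exact_mod_cast this
    linarith
  have b0 : 0 ≤ β ^ (s * i) := by positivity
  calc _ ≤ (∑ j ∈ A, ∑ g ∈ C j, (fx Ω g : ℝ) ^ 2) / Fintype.card G := by gcongr
    _ = ∑ j ∈ A, (∑ g ∈ C j, (fx Ω g : ℝ) ^ 2) / Fintype.card G := sum_div ..
    _ ≤ #A • (121 * dl G Ω * β ^ (s * i) * (2 * T / φ + Fintype.card Ω / m)) := sum_le_card_nsmul _ _ _ each
    _ = #A * (121 * dl G Ω * β ^ (s * i) * (2 * T / φ + Fintype.card Ω / m)) := nsmul_eq_mul ..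
    _ ≤ (2 * Real.log (Fintype.card Ω) + 1) * (121 * dl G Ω * β ^ (s * i) * (2 * T / φ + Fintype.card Ω / m)) := by
      gcongr
    _ = _ := by ring

end Cfsg.Agent.Dg
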